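import Cfsg.Agent.H525.D32.Mdef

/-!
# S5916, dimension 32: the matrices of the toral elements (helper977)

`m1 : M1Stmt`, `m2 : M2Stmt`, `m3 : M3Stmt`.
-/

set_option autoImplicit false
set_option linter.unusedSectionVars false

namespace Cfsg.Agent.H977.D32

open Matrix Cfsg.Agent.H525.D32

section Gen

variable {K : Type} [Field K]

theorem st_st : ∀ k : Fin 8, st (st k) = k := by decide

/-- `st` as a permutation -/
def stE : Equiv.Perm (Fin 8) := ⟨st, st, st_st, st_st⟩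

theorem b8_eq (v w : Fin 8 → K) : b8 v w = ∑ k, v k * w (st k) := by
  rw [Fin.sum_univ_eight]
  have h : st 0 = 4 ∧ st 1 = 5 ∧ st 2 = 6 ∧ st 3 = 7 ∧ st 4 = 0 ∧ st 5 = 1 ∧ st 6 = 2 ∧ st 7 = 3 := by decide
  rw [h.1, h.2.1, h.2.2.1, h.2.2.2.1, h.2.2.2.2.1, h.2.2.2.2.2.1, h.2.2.2.2.2.2.1, h.2.2.2.2.2.2.2]
  unfold b8
  ring

theorem b8_comm (v w : Fin 8 → K) : b8 v w = b8 w v := by unfold b8; ring

theorem b8_mul {X : Matrix (Fin 8) (Fin 8) K} (hX : GM X) (v w : Fin 8 → K) : b8 (X *ᵥ v) w = b8 v (X *ᵥ w) := by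
  rw [b8_eq, b8_eq]
  have h1 : ∀ k, (X *ᵥ v) k * w (st k) = ∑ l, X k l * v l * w (st k) := fun k => by
    rw [Matrix.mulVec, dotProduct, Finset.sum_mul]
  have h2 : ∀ l, v l * (X *ᵥ w) (st l) = ∑ k, X k l * v l * w (st k) := fun l => by
    rw [Matrix.mulVec, dotProduct, Finset.mul_sum]
    rw [← Equiv.sum_comp stE (fun k => v l * (X (st l) k * w k))]
    refine Finset.sum_congr rfl fun k _ => ?_
    show v l * (X (st l) (st k) * w (st k)) = _
    rw [hX.sym k l]
    ring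
  rw [Finset.sum_congr rfl fun k _ => h1 k, Finset.sum_congr rfl fun l _ => h2 l, Finset.sum_comm]

end Gen

theorem m1 : M1Stmt := by
  intro K _ _ X hX p hp hu w
  have hXX : X *ᵥ (X *ᵥ p) = X *ᵥ p := by rw [Matrix.mulVec_mulVec, hX.idem]
  unfold sg
  rw [hu, one_mul, one_mul, Matrix.mulVec_add, Matrix.mulVec_add, Matrix.mulVec_add, Matrix.mulVec_smul,
    Matrix.mulVec_smul, Matrix.mulVec_smul, hXX, b8_mul hX w p, b8_mul hX w (X *ᵥ p), hXX]
  have h2 : ∀ v : Fin 8 → K, v + v = 0 := fun v => by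
    funext k
    exact CharTwo.add_self_eq_zero _
  have e1 : X *ᵥ w + b8 w p • X *ᵥ p + b8 w (X *ᵥ p) • X *ᵥ p + b8 w p • X *ᵥ p =
      X *ᵥ w + b8 w (X *ᵥ p) • X *ᵥ p + (b8 w p • X *ᵥ p + b8 w p • X *ᵥ p) := by abel
  have e2 : X *ᵥ w + b8 w (X *ᵥ p) • X *ᵥ p + b8 w (X *ᵥ p) • p + b8 w (X *ᵥ p) • p =
      X *ᵥ w + b8 w (X *ᵥ p) • X *ᵥ p + (b8 w (X *ᵥ p) • p + b8 w (X *ᵥ p) • p) := by abel
  rw [e1, e2, h2, h2]

/-- the seven vectors over `F₂` -/
def pz (a : Fin 7) : Fin 3 → ZMod 2 :=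
  ![![1, 0, 0], ![0, 1, 0], ![0, 0, 1], ![1, 1, 0], ![1, 0, 1], ![0, 1, 1], ![1, 1, 1]] a

section Two

variable {K : Type} [Field K] [CharP K 2]

/-- the embedding of `F₂` -/
noncomputable def fz (K : Type) [Field K] [CharP K 2] : ZMod 2 →+* K := ZMod.castHom (dvd_refl 2) K

theorem fz_inj : Function.Injective (fz K) := (fz K).injective

theorem fz_sq (x : ZMod 2) : fz K x ^ 2 = fz K x := by
  rw [← map_pow]
  congr 1
  revert x
  decide

theorem exists_fz {x : K} (h : x ^ 2 = x) : ∃ z : ZMod 2, fz K z = x := by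
  have h1 : x * (x - 1) = 0 := by linear_combination h
  rcases mul_eq_zero.1 h1 with h2 | h2
  · exact ⟨0, by rw [map_zero, h2]⟩
  · exact ⟨1, by rw [map_one]; exact (sub_eq_zero.1 h2).symm⟩

theorem pp_eq (a : Fin 7) : (pp a : Fin 8 → K) =
    fz K (pz a 0) • Pi.single 0 1 + fz K (pz a 1) • Pi.single 1 1 + fz K (pz a 2) • Pi.single 2 1 := by
  fin_cases a <;> funext k <;> fin_cases k <;> simp [pp, pz]

end Two

theorem m3 : M3Stmt := by
  intro K _ _ X hX a b hab ha hb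
  have hw : ∀ a b : Fin 7, a ≠ b → ∃ w : Fin 3 → ZMod 2, w 0 * pz a 0 + w 1 * pz a 1 + w 2 * pz a 2 = 1 ∧
      w 0 * pz b 0 + w 1 * pz b 1 + w 2 * pz b 2 = 0 := by decide
  obtain ⟨w, hwa, hwb⟩ := hw a b hab
  let W : Fin 8 → K := ![0, 0, 0, 0, fz K (w 0), fz K (w 1), fz K (w 2), 0]
  have hW : ∀ c : Fin 7, b8 W (pp c) = fz K (w 0 * pz c 0 + w 1 * pz c 1 + w 2 * pz c 2) := by
    intro c
    rw [pp_eq, map_add, map_add, map_mul, map_mul, map_mul]
    simp [b8, W]
  refine ⟨W, fun h => ?_⟩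
  have h1 : b8 W (pp a) = 1 := by rw [hW, hwa, map_one]
  have h2 : b8 W (pp b) = 0 := by rw [hW, hwb, map_zero]
  unfold sg at h
  rw [h1, h2, one_smul, zero_smul, mul_zero, zero_smul, mul_one, ha, one_smul, add_zero, add_zero] at h
  set u := X *ᵥ (pp a : Fin 8 → K) with hu
  set c := b8 W u
  set d := b8 W (X *ᵥ (pp b : Fin 8 → K))
  have hk : ∀ k : Fin 8, 3 ≤ k → u k = 0 := by
    intro k hk
    have h3 := congrFun h k
    have h4 : ∀ e : Fin 7, (pp e : Fin 8 → K) k = 0 := by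
      intro e
      rw [pp_eq]
      fin_cases k <;> simp_all
    simp only [Pi.add_apply, Pi.smul_apply, smul_eq_mul, h4, mul_zero, add_zero] at h3
    exact left_eq_add.1 h3.symm
  have h5 : q8 u = 0 := by
    unfold q8
    rw [hk 3 (by decide), hk 4 (by decide), hk 5 (by decide), hk 6 (by decide)]
    ring
  rw [h5] at ha
  exact zero_ne_one ha

theorem no_mat : ∀ Y : Fin 3 → Fin 3 → ZMod 2, ∃ i j, (∑ k, Y i k * Y k j) ≠ Y i j + if i = j then 1 else 0 := by
  decide +kernel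

/-- the value of a quadratic form on `F₂³` -/
def qv (n : Fin 3 → ZMod 2) (b : Fin 3 → ZMod 2) (a : Fin 7) : ZMod 2 :=
  pz a 0 * n 0 + pz a 1 * n 1 + pz a 2 * n 2 + pz a 0 * pz a 1 * b 0 + pz a 0 * pz a 2 * b 1 + pz a 1 * pz a 2 * b 2

theorem two_ones : ∀ n b : Fin 3 → ZMod 2, (n ≠ 0 ∨ b ≠ 0) → ∃ a c : Fin 7, a ≠ c ∧ qv n b a = 1 ∧ qv n b c = 1 := by
  decide +kernel

section M2

variable {K : Type} [Field K] [CharP K 2]

/-- the columns -/
def cl (X : Matrix (Fin 8) (Fin 8) K) (i : Fin 8) : Fin 8 → K := fun k => X k i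

theorem mul_single (X : Matrix (Fin 8) (Fin 8) K) (i : Fin 8) : X *ᵥ Pi.single i 1 = cl X i := by
  funext k
  rw [Matrix.mulVec, dotProduct_single, mul_one]
  rfl

theorem b8_single (v : Fin 8 → K) (j : Fin 8) : b8 v (Pi.single j 1) = v (st j) := by
  rw [b8_eq, Finset.sum_eq_single (st j)]
  · rw [st_st, Pi.single_eq_same, mul_one]
  · intro k _ hk
    rw [Pi.single_eq_of_ne, mul_zero]
    rintro rfl
    exact hk (st_st k).symm
  · intro h
    exact absurd (Finset.mem_univ _) h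

theorem b8_cl {X : Matrix (Fin 8) (Fin 8) K} (hX : GM X) (i j : Fin 8) : b8 (cl X i) (cl X j) = X (st j) i := by
  rw [← mul_single, ← mul_single, ← b8_mul hX, Matrix.mulVec_mulVec, hX.idem, b8_single, mul_single]
  rfl

theorem q8_lin (a b c : K) (u v w : Fin 8 → K) : q8 (a • u + b • v + c • w) =
    a ^ 2 * q8 u + b ^ 2 * q8 v + c ^ 2 * q8 w + a * b * b8 u v + a * c * b8 u w + b * c * b8 v w := by
  simp only [q8, b8, Pi.add_apply, Pi.smul_apply, smul_eq_mul]
  ring

theorem q8_pp {X : Matrix (Fin 8) (Fin 8) K} (hX : GM X) (a : Fin 7) : q8 (X *ᵥ (pp a : Fin 8 → K)) =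
    fz K (pz a 0) * q8 (cl X 0) + fz K (pz a 1) * q8 (cl X 1) + fz K (pz a 2) * q8 (cl X 2) +
      fz K (pz a 0) * fz K (pz a 1) * X 5 0 + fz K (pz a 0) * fz K (pz a 2) * X 6 0 +
      fz K (pz a 1) * fz K (pz a 2) * X 6 1 := by
  rw [pp_eq, Matrix.mulVec_add, Matrix.mulVec_add, Matrix.mulVec_smul, Matrix.mulVec_smul, Matrix.mulVec_smul,
    mul_single, mul_single, mul_single, q8_lin, fz_sq, fz_sq, fz_sq, b8_cl hX, b8_cl hX, b8_cl hX]
  rfl

theorem rat2 {X : Matrix (Fin 8) (Fin 8) K} (hX : GM X) : ∀ k l : Fin 8, k ≠ l → ph k = k → ph l = l →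
    X k l ^ 2 = X k l := by
  intro k l h h1 h2
  rw [hX.rat k l h, h1, h2]

theorem nu_sq {X : Matrix (Fin 8) (Fin 8) K} (hX : GM X) (i : Fin 3) :
    q8 (cl X (![0, 1, 2] i)) = (q8 (cl X (![0, 1, 2] i))) ^ 2 ∧
      q8 (cl X (![0, 1, 2] i)) = (∑ k : Fin 3, if k = i then 0 else X (![0, 1, 2] k) (![0, 1, 2] i) *
        X (![4, 5, 6] k) (![0, 1, 2] i)) + X 3 (![0, 1, 2] i) * X 7 (![0, 1, 2] i) := by
  have h2 : ∀ a b : K, (a + b) ^ 2 = a ^ 2 + b ^ 2 := fun a b => CharTwo.add_sq a b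
  have e37 : ∀ l : Fin 8, l ≠ 3 → l ≠ 7 → X 3 l ^ 2 = X 7 l := fun l h3 h7 => by
    rw [hX.rat 3 l h3.symm]
    congr 1
    unfold ph
    rw [if_neg h3, if_neg h7]
  have e73 : ∀ l : Fin 8, l ≠ 3 → l ≠ 7 → X 7 l ^ 2 = X 3 l := fun l h3 h7 => by
    rw [hX.rat 7 l h7.symm]
    congr 1
    unfold ph
    rw [if_neg h3, if_neg h7]
  have a0 : X 4 0 = 0 := hX.alt 0
  have a1 : X 5 1 = 0 := hX.alt 1
  have a2 : X 6 2 = 0 := hX.alt 2
  fin_cases i
  · have r1 := rat2 hX 1 0 (by decide) (by decide) (by decide)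
    have r2 := rat2 hX 5 0 (by decide) (by decide) (by decide)
    have r3 := rat2 hX 2 0 (by decide) (by decide) (by decide)
    have r4 := rat2 hX 6 0 (by decide) (by decide) (by decide)
    have r5 := e37 0 (by decide) (by decide)
    have r6 := e73 0 (by decide) (by decide)
    constructor
    · simp [q8, cl, a0]
      rw [h2, h2, mul_pow, mul_pow, mul_pow, r1, r2, r3, r4, r5, r6]
      ring
    · simp [q8, cl, a0, Fin.sum_univ_three]
  · have r1 := rat2 hX 0 1 (by decide) (by decide) (by decide)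
    have r2 := rat2 hX 4 1 (by decide) (by decide) (by decide)
    have r3 := rat2 hX 2 1 (by decide) (by decide) (by decide)
    have r4 := rat2 hX 6 1 (by decide) (by decide) (by decide)
    have r5 := e37 1 (by decide) (by decide)
    have r6 := e73 1 (by decide) (by decide)
    constructor
    · simp [q8, cl, a1]
      rw [h2, h2, mul_pow, mul_pow, mul_pow, r1, r2, r3, r4, r5, r6]
      ring
    · simp [q8, cl, a1, Fin.sum_univ_three]
  · have r1 := rat2 hX 0 2 (by decide) (by decide) (by decide)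
    have r2 := rat2 hX 4 2 (by decide) (by decide) (by decide)
    have r3 := rat2 hX 1 2 (by decide) (by decide) (by decide)
    have r4 := rat2 hX 5 2 (by decide) (by decide) (by decide)
    have r5 := e37 2 (by decide) (by decide)
    have r6 := e73 2 (by decide) (by decide)
    constructor
    · simp [q8, cl, a2]
      rw [h2, h2, mul_pow, mul_pow, mul_pow, r1, r2, r3, r4, r5, r6]
      ring
    · simp [q8, cl, a2, Fin.sum_univ_three]

end M2

theorem m2 : M2Stmt := by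
  intro K _ _ X hX
  have hn : ∀ i : Fin 3, ∃ z : ZMod 2, fz K z = q8 (cl X (![0, 1, 2] i)) := fun i =>
    exists_fz (nu_sq hX i).1.symm
  choose n hn using hn
  obtain ⟨b0, hb0⟩ := exists_fz (rat2 hX 5 0 (by decide) (by decide) (by decide))
  obtain ⟨b1, hb1⟩ := exists_fz (rat2 hX 6 0 (by decide) (by decide) (by decide))
  obtain ⟨b2, hb2⟩ := exists_fz (rat2 hX 6 1 (by decide) (by decide) (by decide))
  have hval : ∀ a : Fin 7, q8 (X *ᵥ (pp a : Fin 8 → K)) = fz K (qv n ![b0, b1, b2] a) := by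
    intro a
    have h0 : fz K (n 0) = q8 (cl X 0) := hn 0
    have h1 : fz K (n 1) = q8 (cl X 1) := hn 1
    have h2 : fz K (n 2) = q8 (cl X 2) := hn 2
    rw [q8_pp hX, ← hb0, ← hb1, ← hb2, ← h0, ← h1, ← h2]
    simp [qv]
  by_cases hc : n ≠ 0 ∨ (![b0, b1, b2] : Fin 3 → ZMod 2) ≠ 0
  · obtain ⟨a, c, hac, ha, hc⟩ := two_ones n ![b0, b1, b2] hc
    exact ⟨a, c, hac, by rw [hval, ha, map_one], by rw [hval, hc, map_one]⟩
  · exfalso
    push Not at hc
    obtain ⟨hn0, hb⟩ := hc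
    have z0 : b0 = 0 := congrFun hb 0
    have z1 : b1 = 0 := congrFun hb 1
    have z2 : b2 = 0 := congrFun hb 2
    rw [z0, map_zero] at hb0
    rw [z1, map_zero] at hb1
    rw [z2, map_zero] at hb2
    have s0 : X 4 1 = 0 := by rw [hX.sym 4 1]; exact hb0.symm
    have s1 : X 4 2 = 0 := by rw [hX.sym 4 2]; exact hb1.symm
    have s2 : X 5 2 = 0 := by rw [hX.sym 5 2]; exact hb2.symm
    have a0 : X 4 0 = 0 := hX.alt 0
    have a1 : X 5 1 = 0 := hX.alt 1
    have a2 : X 6 2 = 0 := hX.alt 2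
    have hk : ∀ i : Fin 3, X 3 (![0, 1, 2] i) = 0 ∧ X 7 (![0, 1, 2] i) = 0 := by
      intro i
      have h1 := (nu_sq hX i).2
      rw [← hn i, hn0, Pi.zero_apply, map_zero] at h1
      have h3 : (∑ k : Fin 3, if k = i then 0 else X (![0, 1, 2] k) (![0, 1, 2] i) *
          X (![4, 5, 6] k) (![0, 1, 2] i)) = 0 := by
        fin_cases i <;> simp [Fin.sum_univ_three, ← hb0, ← hb1, ← hb2, s0, s1, s2]
      rw [h3, zero_add] at h1
      have h4 : X 3 (![0, 1, 2] i) ^ 2 = X 7 (![0, 1, 2] i) := by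
        rw [hX.rat 3 _ (by fin_cases i <;> decide)]
        congr 1
        fin_cases i <;> rfl
      rw [← h4] at h1
      have h5 : X 3 (![0, 1, 2] i) = 0 := by
        rcases mul_eq_zero.1 h1.symm with h | h
        · exact h
        · exact pow_eq_zero_iff (two_ne_zero) |>.1 h
      exact ⟨h5, by rw [← h4, h5]; ring⟩
    have hZ : ∀ i j : Fin 3, ∑ k : Fin 3, X (![0, 1, 2] i) (![0, 1, 2] k) * X (![0, 1, 2] k) (![0, 1, 2] j) =
        X (![0, 1, 2] i) (![0, 1, 2] j) := by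
      intro i j
      have h1 := congrFun (congrFun hX.idem (![0, 1, 2] i)) (![0, 1, 2] j)
      rw [Matrix.mul_apply, Fin.sum_univ_eight] at h1
      have h4 : X 4 (![0, 1, 2] j) = 0 ∧ X 5 (![0, 1, 2] j) = 0 ∧ X 6 (![0, 1, 2] j) = 0 := by
        fin_cases j
        · exact ⟨a0, hb0.symm, hb1.symm⟩
        · exact ⟨s0, a1, hb2.symm⟩
        · exact ⟨s1, s2, a2⟩
      rw [(hk j).1, (hk j).2, h4.1, h4.2.1, h4.2.2] at h1
      rw [Fin.sum_univ_three]
      simp only [mul_zero, add_zero] at h1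
      exact h1
    have hdia : ∀ i : Fin 3, X (![0, 1, 2] i) (![0, 1, 2] i) ^ 2 = X (![0, 1, 2] i) (![0, 1, 2] i) + 1 := by
      intro i
      have hp : ph (![0, 1, 2] i) = ![0, 1, 2] i := by fin_cases i <;> rfl
      rw [hX.dia, hp]
    set α := X 0 0 with hα
    have hα2 : α ^ 2 = α + 1 := hdia 0
    have hY : ∀ i j : Fin 3, ∃ z : ZMod 2, fz K z = X (![0, 1, 2] i) (![0, 1, 2] j) + if i = j then α else 0 := by
      intro i j
      apply exists_fz
      by_cases hij : i = j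
      · subst hij
        rw [if_pos rfl, CharTwo.add_sq, hdia, hα2]
        have := CharTwo.two_eq_zero (R := K)
        linear_combination this
      · rw [if_neg hij, add_zero]
        apply rat2 hX
        · fin_cases i <;> fin_cases j <;> first | decide | exact absurd rfl hij
        · fin_cases i <;> rfl
        · fin_cases j <;> rfl
    choose Y hY using hY
    obtain ⟨i, j, hij⟩ := no_mat Y
    apply hij
    apply fz_inj (K := K)
    rw [map_sum, map_add]
    have h1 : ∀ k, fz K (Y i k * Y k j) = (X (![0, 1, 2] i) (![0, 1, 2] k) + if i = k then α else 0) *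
        (X (![0, 1, 2] k) (![0, 1, 2] j) + if k = j then α else 0) := fun k => by rw [map_mul, hY, hY]
    rw [Finset.sum_congr rfl fun k _ => h1 k, hY]
    have h2 : ∀ k : Fin 3, (X (![0, 1, 2] i) (![0, 1, 2] k) + if i = k then α else 0) *
        (X (![0, 1, 2] k) (![0, 1, 2] j) + if k = j then α else 0) =
        X (![0, 1, 2] i) (![0, 1, 2] k) * X (![0, 1, 2] k) (![0, 1, 2] j) +
        (if k = j then α * X (![0, 1, 2] i) (![0, 1, 2] k) else 0) +
        (if k = i then α * X (![0, 1, 2] k) (![0, 1, 2] j) else 0) +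
        (if k = j then (if i = k then α ^ 2 else 0) else 0) := by
      intro k
      by_cases h3 : i = k
      · subst h3
        by_cases h4 : i = j
        · subst h4; simp only [if_true]; ring
        · simp only [if_neg h4, if_true]; ring
      · have h3' : ¬ k = i := fun h => h3 h.symm
        by_cases h4 : k = j
        · subst h4; simp only [if_neg h3, if_neg h3', if_true]; ring
        · simp only [if_neg h3, if_neg h3', if_neg h4]; ring
    rw [Finset.sum_congr rfl fun k _ => h2 k, Finset.sum_add_distrib, Finset.sum_add_distrib,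
      Finset.sum_add_distrib, hZ, Finset.sum_ite_eq', Finset.sum_ite_eq', Finset.sum_ite_eq']
    simp only [Finset.mem_univ, if_true]
    have t2 := CharTwo.two_eq_zero (R := K)
    by_cases h5 : i = j
    · simp only [if_pos h5, map_one, hα2]
      linear_combination α * X (![0, 1, 2] i) (![0, 1, 2] j) * t2
    · simp only [if_neg h5, map_zero]
      linear_combination α * X (![0, 1, 2] i) (![0, 1, 2] j) * t2

end Cfsg.Agent.H977.D32
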